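import Cfsg.Agent.Lib.US7.Def

/-! # Degrees modulo an abelian trivial intersection subgroup; regular character minus one -/

set_option autoImplicit false

namespace Cfsg.Lib.US7

open Finset Cfsg.Lib.CKS Cfsg.Lib.Char ComplexConjugate

variable {G : Type*} [Group G] [Fintype G]

omit [Fintype G] in
theorem vr_cls (hG : ∀ x y : G, x * y = y * x) (φ : G → ℂ) : IsClassFunction G φ := fun g h => by
  rw [hG h g, mul_inv_cancel_right]

omit [Fintype G] in
theorem vr_lin (hG : ∀ x y : G, x * y = y * x) (l : IrrCharacter G) : l.1 1 = 1 :=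
  have : IsMulCommutative G := ⟨⟨hG⟩⟩
  l.2.apply_one_of_comm

theorem vr_card (hG : ∀ x y : G, x * y = y * x) : Fintype.card (IrrCharacter G) = Nat.card G := by
  have := sum_irr_apply_one_sq G
  simp only [vr_lin hG, one_pow, sum_const, card_univ, nsmul_eq_mul, mul_one] at this
  exact_mod_cast this

theorem vr_one (hG : ∀ x y : G, x * y = y * x) (φ : G → ℂ) :
    φ 1 = ∑ l : IrrCharacter G, classInner φ l.1 := by
  simpa [vr_lin hG] using (vr_cls hG φ).apply_eq_sum_irr 1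

/-- Parseval -/
theorem vr_pars (hG : ∀ x y : G, x * y = y * x) (φ : G → ℂ) :
    ∑ g, ‖φ g‖ ^ 2 = Nat.card G * ∑ l : IrrCharacter G, ‖classInner φ l.1‖ ^ 2 := by
  have h0 : (0 : ℝ) < Nat.card G := Nat.cast_pos.2 Nat.card_pos
  have := congrArg Complex.re ((vr_cls hG φ).inner_eq_sum_irr φ)
  simp only [classInner_self_re, Complex.mul_conj', Complex.re_sum, ← Complex.ofReal_pow,
    Complex.ofReal_re] at this
  rw [← this]; field_simp

theorem vr_var [DecidableEq G] (hG : ∀ x y : G, x * y = y * x) {φ : G → ℂ} {c : IrrCharacter G → ℤ}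
    (hc : ∀ l, classInner φ l.1 = c l) : φ 1 = ((∑ l, c l : ℤ) : ℂ) ∧
      ∑ x ∈ (univ : Finset G).erase 1, ‖φ x‖ ^ 2 = (var c : ℝ) := by
  have h1 : φ 1 = ((∑ l, c l : ℤ) : ℂ) := by simp [vr_one hG φ, hc]
  refine ⟨h1, ?_⟩
  rw [Finset.sum_erase_eq_sub (mem_univ _), vr_pars hG, h1, Complex.norm_intCast, sq_abs, var, vr_card hG]
  simp only [hc, Complex.norm_intCast, sq_abs]
  push_cast; ring

theorem vr_comb {I J : Type*} [Fintype I] [Fintype J] {r : ℕ} (big : (r + 1) ^ 2 < Fintype.card I)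
    (c : J → I → ℤ) (h : ∑ j, var (c j) ≤ r * Fintype.card I) :
    ∃ D m : ℤ, |D| ≤ r ∧ ∑ j, ∑ i, c j i = m * Fintype.card I + D := by
  classical
  have v0 : ∀ j, 0 ≤ var (c j) := fun j => by
    have := two_var (c j)
    have : 0 ≤ ∑ i, ∑ k, (c j i - c j k) ^ 2 := by positivity
    omega
  choose k hk using fun j => exists_mode big (c j)
    ((single_le_sum (fun j _ => v0 j) (mem_univ j)).trans h)
  have h1 : ∀ j, (Fintype.card I - r : ℤ) * ∑ i, (c j i - k j) ^ 2 ≤ var (c j) := fun j => by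
    have e1 : ∑ i, (c j i - k j) = ∑ i ∈ ({i | c j i ≠ k j} : Finset I), (c j i - k j) :=
      (sum_subset (subset_univ _) fun i _ hi => by simpa [sub_eq_zero] using hi).symm
    have e2 := sq_sum_le_card_mul_sum_sq (s := ({i | c j i ≠ k j} : Finset I)) (f := fun i => c j i - k j)
    have e3 : ∑ i ∈ ({i | c j i ≠ k j} : Finset I), (c j i - k j) ^ 2 ≤ ∑ i, (c j i - k j) ^ 2 :=
      sum_le_sum_of_subset_of_nonneg (subset_univ _) fun _ _ _ => by positivity
    have e4 : (#({i | c j i ≠ k j} : Finset I) : ℤ) ≤ r := by exact_mod_cast hk j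
    have e5 : 0 ≤ ∑ i ∈ ({i | c j i ≠ k j} : Finset I), (c j i - k j) ^ 2 := by positivity
    rw [← var_sub (c j) (k j), var, e1]
    nlinarith
  have h2 : (Fintype.card I - r : ℤ) * ∑ j, ∑ i, (c j i - k j) ^ 2 ≤ r * Fintype.card I := by
    rw [mul_sum]; exact (sum_le_sum fun j _ => h1 j).trans h
  have h3 : ∑ j, ∑ i, (c j i - k j) ^ 2 ≤ r := by
    by_contra! c0
    have : ((r : ℤ) + 1) ^ 2 < Fintype.card I := by exact_mod_cast big
    have r0 : (0 : ℤ) ≤ r := by positivity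
    have := mul_le_mul_of_nonneg_left (show (r : ℤ) + 1 ≤ _ from c0)
      (show (0 : ℤ) ≤ Fintype.card I - r by nlinarith)
    nlinarith
  refine ⟨∑ j, ∑ i, (c j i - k j), ∑ j, k j, ?_, ?_⟩
  · refine (abs_sum_le_sum_abs _ _).trans ((sum_le_sum fun j _ => (abs_sum_le_sum_abs _ _).trans
      (sum_le_sum fun i _ => ?_)).trans h3)
    rw [← sq_abs]; exact Int.le_self_sq _
  · simp only [sum_sub_distrib, sum_const, card_univ, nsmul_eq_mul, ← mul_sum]; ring

/-- `C = S × R` abelian.  `ti_le` for the set `{b x : x ∈ S - 1, b ∈ R}` and `f = ‖χ‖²` gives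
`∑_(x ≠ 1, b) ‖χ (b x)‖² ≤ r |S| |R|`.  For `β ∈ Irr R` put `χ_β x = |R|⁻¹ ∑_b conj (β b) χ (b x)`, a
character of `S` with multiplicities `c_β α ∈ ℕ` (inner product of `χ|C` with the linear character
`α β`); Parseval on `R`: `∑_b ‖χ (b x)‖² = |R| ∑_β ‖χ_β x‖²`, and `∑_(x≠1) ‖χ_β x‖² = var c_β`
(as in `TS.var_le`).  So `∑_β var c_β ≤ r |S|`.  `exists_mode` gives `k_β` with at most `r`
exceptions; with `S2 = ∑ (c - k)²`, Cauchy-Schwarz gives `var ≥ (|S| - r) S2`, so `∑_β S2_β ≤ r`, and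
`χ 1 = ∑_β ∑_α c_β α = |S| ∑ k_β + D`, `|D| ≤ ∑ |c - k| ≤ ∑ S2 ≤ r`. -/
theorem deg_cong {C S R N : Subgroup G} (hC : ∀ x ∈ C, ∀ y ∈ C, x * y = y * x) (hS : S ≤ C)
    (hR : R ≤ C) (hd : S ⊓ R = ⊥) (hc : Nat.card C = Nat.card S * Nat.card R) {r : ℕ}
    (ti : ∀ g, ∀ x ∈ S, ∀ b ∈ R, x ≠ 1 → g * (b * x) * g⁻¹ ∈ C → g ∈ N)
    (hN : Nat.card N ≤ r * Nat.card C) (big : (r + 1) ^ 2 < Nat.card S) (χ : IrrCharacter G) :
    ∃ D m : ℤ, |D| ≤ r ∧ χ.1 1 = (m * Nat.card S + D : ℤ) := by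
  classical
  have := Fintype.ofFinite S
  have := Fintype.ofFinite R
  have cS : ∀ x y : S, x * y = y * x := fun x y => Subtype.ext (hC _ (hS x.2) _ (hS y.2))
  have cR : ∀ x y : R, x * y = y * x := fun x y => Subtype.ext (hC _ (hR x.2) _ (hR y.2))
  let j : S × R →* G :=
    { toFun := fun t => t.2 * t.1
      map_one' := by simp
      map_mul' := fun a b => by
        simp only [Prod.snd_mul, Prod.fst_mul, Subgroup.coe_mul, mul_assoc]
        rw [← mul_assoc (b.2 : G), hC _ (hR b.2.2) _ (hS a.1.2), mul_assoc] }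
  let ψ : IrrCharacter R → S → ℂ := fun β x => classInner (fun b : R => χ.1 (b * x)) β.1
  have hψ : ∀ β (α : IrrCharacter S), ∃ n : ℕ, classInner (ψ β) α.1 = n := fun β α => by
    obtain ⟨n, hn⟩ := (χ.2.isCharacter.comp j).exists_inner_eq_nat (α.2.isCharacter.prod β.2.isCharacter)
    refine ⟨n, hn ▸ ?_⟩
    simp only [ψ, classInner_def, Fintype.sum_prod_type, Nat.card_prod, Nat.cast_mul, mul_inv, map_mul,
      mul_sum, sum_mul]
    exact sum_congr rfl fun x _ => sum_congr rfl fun b _ => by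
      show _ = _ * (χ.1 (b * x) * _); ring
  choose c hcc using hψ
  have hv := fun β => vr_var cS (φ := ψ β) (c := fun α => c β α) fun α => by rw [hcc]; simp
  have inj : Function.Injective fun t : S × R => (t.2 * t.1 : G) := by
    rintro ⟨x, z⟩ ⟨x', z'⟩ e
    have e1 : (x : G) * (x' : G)⁻¹ = (z : G)⁻¹ * z' := by
      rw [mul_inv_eq_iff_eq_mul, mul_assoc, eq_inv_mul_iff_mul_eq]; exact e
    have e2 : (x : G) * (x' : G)⁻¹ = 1 := Subgroup.mem_bot.1 (hd ▸ Subgroup.mem_inf.2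
      ⟨S.mul_mem x.2 (S.inv_mem x'.2), e1 ▸ R.mul_mem (R.inv_mem z.2) z'.2⟩)
    rw [e2, eq_comm, inv_mul_eq_one] at e1
    exact Prod.ext (Subtype.ext (mul_inv_eq_one.1 e2)) (Subtype.ext e1)
  have h1 := ti_le (((univ.erase 1) ×ˢ univ).image fun t : S × R => (t.2 * t.1 : G)) N (by
    simp only [mem_image, mem_product, mem_erase, mem_univ, and_true]
    rintro g _ ⟨⟨x, z⟩, hx, rfl⟩ ⟨⟨x', z'⟩, -, e⟩
    exact ti g x x.2 z z.2 (fun e => hx (Subtype.ext e)) (e ▸ C.mul_mem (hR z'.2) (hS x'.2)))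
    (fun g => ‖χ.1 g‖ ^ 2) (fun _ => by positivity) fun g k => by rw [χ.2.isClassFunction.conj_apply]
  rw [Finset.sum_image fun a _ b _ e => inj e, Finset.sum_product, χ.2.sum_norm_sq] at h1
  have h2 : ∑ x ∈ (univ : Finset S).erase 1, ∑ b : R, ‖χ.1 (b * x)‖ ^ 2 =
      Nat.card R * ((∑ β, var fun α => (c β α : ℤ) : ℤ) : ℝ) := by
    rw [sum_congr rfl fun (x : S) _ => vr_pars cR fun b : R => χ.1 (b * x), ← mul_sum, sum_comm]
    push_cast
    exact congrArg _ (sum_congr rfl fun β _ => (hv β).2)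
  have hG : (0 : ℝ) < Nat.card G := Nat.cast_pos.2 Nat.card_pos
  have hR0 : (0 : ℝ) < Nat.card R := Nat.cast_pos.2 Nat.card_pos
  have hN' : (Nat.card N : ℝ) ≤ r * (Nat.card S * Nat.card R) := by rw [hc] at hN; exact_mod_cast hN
  have h3 : ((∑ β, var fun α => (c β α : ℤ) : ℤ) : ℝ) ≤ r * Nat.card S := by
    rw [h2, mul_comm] at h1
    have := (le_of_mul_le_mul_right h1 hG).trans hN'
    nlinarith
  obtain ⟨D, m, hD, e⟩ := vr_comb (r := r) (by rwa [vr_card cS]) (fun β α => (c β α : ℤ))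
    (by rw [vr_card cS]; exact_mod_cast h3)
  refine ⟨D, m, hD, ?_⟩
  rw [← vr_card cS, ← e]
  have := vr_one cR fun b : R => χ.1 (b * (1 : S))
  simp only [OneMemClass.coe_one, mul_one] at this
  rw [this, Int.cast_sum]
  exact sum_congr rfl fun β _ => by simpa [ψ] using (hv β).1

/-- Multiplicities `m_λ ∈ ℕ` with `∑ m = N` and `∑ m² = (N² + N)/(N + 1) = N`, so all `m ≤ 1` and
exactly one of the `N + 1` linear characters is missing; column orthogonality. -/
theorem reg_sub (hG : ∀ x y : G, x * y = y * x) {θ : G → ℂ} (hθ : IsCharacter G θ)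
    (h1 : θ 1 + 1 = Nat.card G) (h : ∀ t, t ≠ 1 → ‖θ t‖ = 1) :
    ∃ l : G →* ℂˣ, ∀ t, t ≠ 1 → θ t = -l t := by
  classical
  choose m hm using fun l : IrrCharacter G => hθ.exists_inner_eq_nat l.2.isCharacter
  obtain ⟨e1, e2⟩ := vr_var hG (φ := θ) (c := fun l => m l) fun l => by rw [hm]; simp
  rw [sum_congr rfl fun t ht => by rw [h t (ne_of_mem_erase ht)], sum_const, card_erase_of_mem (mem_univ _),
    card_univ, ← Nat.card_eq_fintype_card] at e2
  have n0 : 0 < Nat.card G := Nat.card_pos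
  have e3 : ∑ l, (m l : ℤ) + 1 = Nat.card G := by rw [e1] at h1; exact_mod_cast h1
  have e4 : var (fun l => (m l : ℤ)) + 1 = Nat.card G := by
    rw [nsmul_eq_mul, Nat.cast_sub n0] at e2
    have : ((var (fun l => (m l : ℤ)) : ℤ) : ℝ) + 1 = Nat.card G := by rw [← e2]; simp
    exact_mod_cast this
  rw [var, vr_card hG] at e4
  have e5 : ∑ l, (m l : ℤ) ^ 2 + 1 = Nat.card G := by
    have : (0 : ℤ) < Nat.card G := by exact_mod_cast n0
    refine mul_left_cancel₀ this.ne' ?_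
    have e6 : ∑ l, (m l : ℤ) = Nat.card G - 1 := by omega
    rw [e6] at e4
    linear_combination e4
  have e6 : ∑ l, (1 - m l : ℤ) = 1 := by
    rw [sum_sub_distrib, sum_const, card_univ, vr_card hG, nsmul_eq_mul]; omega
  have e7 : ∑ l, (1 - m l : ℤ) ^ 2 = 1 := by
    simp only [sub_sq, sum_add_distrib, sum_sub_distrib, sum_const, card_univ, vr_card hG, nsmul_eq_mul,
      ← mul_sum]
    omega
  obtain ⟨l, -, hl⟩ := exists_ne_zero_of_sum_ne_zero (e6.trans_ne one_ne_zero)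
  have e8 : ∀ k, k ≠ l → (m k : ℤ) = 1 := fun k hk => by
    have := sum_le_sum_of_subset_of_nonneg (f := fun l => (1 - m l : ℤ) ^ 2) (subset_univ {k, l})
      fun _ _ _ => by positivity
    rw [sum_pair hk, e7] at this
    have := sq_pos_of_ne_zero hl
    have : (1 - m k : ℤ) ^ 2 = 0 := le_antisymm (by omega) (by positivity)
    have := pow_eq_zero_iff two_ne_zero |>.1 this
    omega
  rw [sum_eq_single l (fun k _ hk => by rw [e8 k hk, sub_self]) (by simp)] at e6
  have : IsMulCommutative G := ⟨⟨hG⟩⟩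
  obtain ⟨lam, e⟩ := l.2.exists_hom_of_comm
  refine ⟨lam, fun t ht => ?_⟩
  have e9 := sum_irr_apply_one_mul_apply_of_ne_one ht
  simp only [vr_lin hG, one_mul] at e9
  rw [← add_sum_erase _ _ (mem_univ l), e, add_comm, add_eq_zero_iff_eq_neg] at e9
  rw [hθ.isClassFunction.apply_eq_sum_irr t, ← add_sum_erase _ _ (mem_univ l), hm,
    show m l = 0 by omega, ← e9, Nat.cast_zero, zero_mul, zero_add]
  exact sum_congr rfl fun k hk => by
    rw [hm, show m k = 1 by exact_mod_cast e8 k (ne_of_mem_erase hk), Nat.cast_one, one_mul]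

variable {C : Type*} [CommGroup C] [Fintype C] {ι : C →* G} (hι : ∀ c, ι c ∈ Subgroup.center G)
  {θ : G → ℂ}
include hι

omit hι [Fintype G] in
theorem cp_inner (ω : C → ℂ) (g : G) : cp ι θ ω g = classInner (fun c => θ (ι c * g)) ω := by
  simp only [cp, classInner_def, mul_comm]

/-- expand `θ` in irreducibles; `cp ι χ ω = χ` or `0` according to the central character of `χ`
(`irr_central`, orthogonality in `C`) -/
theorem cp_eq (hθ : IsClassFunction G θ) (ω : IrrCharacter C) (g : G) : cp ι θ ω.1 g =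
    ∑ χ : IrrCharacter G, if ∀ c, χ.1 (ι c) = ω.1 c * χ.1 1 then classInner θ χ.1 * χ.1 g else 0 := by
  classical
  rw [cp_inner, show (fun c => θ (ι c * g)) = ∑ χ : IrrCharacter G, (classInner θ χ.1 * χ.1 g) •
      fun c => χ.1 (ι c) / χ.1 1 from funext fun c => ?_, classInner_sum_left]
  · refine sum_congr rfl fun χ _ => ?_
    have h0 := χ.2.apply_one_ne_zero
    have hl : IsIrrCharacter C fun c => χ.1 (ι c) / χ.1 1 := isIrrCharacter_of_map_mul
      (by rw [map_one, div_self h0]) fun a b => by rw [map_mul, irr_central χ (hι a), mul_div_assoc]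
    rw [classInner_smul_left, hl.inner_eq_ite ω.2]
    simp only [funext_iff, div_eq_iff h0, mul_ite, mul_one, mul_zero]
  · rw [hθ.apply_eq_sum_irr, Finset.sum_apply]
    exact sum_congr rfl fun χ _ => by rw [irr_central χ (hι c), Pi.smul_apply, smul_eq_mul]; ring

theorem cp_char (hθ : IsCharacter G θ) (ω : IrrCharacter C) : IsCharacter G (cp ι θ ω.1) := by
  classical
  choose m hm using fun l : IrrCharacter G => hθ.exists_inner_eq_nat l.2.isCharacter
  convert isCharacter_sum_nat_smul_irr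
    (fun χ : IrrCharacter G => if ∀ c, χ.1 (ι c) = ω.1 c * χ.1 1 then m χ else 0) using 1
  ext g
  rw [cp_eq hι hθ.isClassFunction, Finset.sum_apply]
  exact sum_congr rfl fun χ _ => by split_ifs <;> simp [hm]

theorem cp_cen (ω : IrrCharacter C) (c : C) (g : G) : cp ι θ ω.1 (ι c * g) = ω.1 c * cp ι θ ω.1 g := by
  have m := ω.2.isCharacter.map_mul_of_apply_one (vr_lin mul_comm ω)
  rw [cp, cp, mul_left_comm]
  congr 1
  rw [mul_sum, ← Equiv.sum_comp (Equiv.mulRight c⁻¹)]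
  refine sum_congr rfl fun d _ => ?_
  rw [Equiv.coe_mulRight, m, ω.2.apply_inv, map_mul, Complex.conj_conj, ← mul_assoc (ι _), ← map_mul,
    inv_mul_cancel_right]
  ring

omit hι in
theorem sum_cp (g : G) : ∑ ω : IrrCharacter C, cp ι θ ω.1 g = θ g := by
  simp only [cp_inner]
  rw [← vr_one mul_comm, map_one, one_mul]

/-- different components are orthogonal -/
theorem inner_sum_cp (hθ : IsClassFunction G θ) :
    classInner θ θ = ∑ ω : IrrCharacter C, classInner (cp ι θ ω.1) (cp ι θ ω.1) := by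
  have h0 : (0 : ℝ) < Nat.card C := Nat.cast_pos.2 Nat.card_pos
  simp only [classInner_self_eq, ← Complex.ofReal_sum, ← mul_sum, cp_inner]
  rw [sum_comm]
  congr 2
  refine mul_left_cancel₀ h0.ne' ?_
  have e : ∀ c, ∑ g, ‖θ (ι c * g)‖ ^ 2 = ∑ g, ‖θ g‖ ^ 2 := fun c =>
    Equiv.sum_comp (Equiv.mulLeft (ι c)) fun g => ‖θ g‖ ^ 2
  rw [mul_sum, mul_sum, sum_congr rfl fun g _ => (vr_pars mul_comm fun c => θ (ι c * g)).symm, sum_comm,
    sum_congr rfl fun c _ => e c, sum_const, card_univ, nsmul_eq_mul, Nat.card_eq_fintype_card, mul_sum]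

end Cfsg.Lib.US7
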