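import Cfsg.Agent.Lib.US7.WD
import Cfsg.Agent.Lib.US7.Var

/-! # Invariant lines in the Weil module -/

set_option autoImplicit false
set_option linter.unusedSectionVars false

namespace Cfsg.Lib.US7

open Module Cfsg.Lib.Unitary Cfsg.Lib.Char LinearMap ComplexConjugate

section av

variable {H M : Type*} [Group H] [Fintype H] [Ring M] [Algebra ℂ M] {π : H → M}

theorem av_left (hπ : ∀ a b, π (a * b) = π a * π b) (g : H) :
    π g * ((Nat.card H : ℂ)⁻¹ • ∑ x, π x) = (Nat.card H : ℂ)⁻¹ • ∑ x, π x := by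
  rw [mul_smul_comm, Finset.mul_sum, ← Equiv.sum_comp (Equiv.mulLeft g) π]
  simp only [Equiv.coe_mulLeft, hπ]

theorem av_right (hπ : ∀ a b, π (a * b) = π a * π b) (g : H) :
    ((Nat.card H : ℂ)⁻¹ • ∑ x, π x) * π g = (Nat.card H : ℂ)⁻¹ • ∑ x, π x := by
  rw [smul_mul_assoc, Finset.sum_mul, ← Equiv.sum_comp (Equiv.mulRight g) π]
  simp only [Equiv.coe_mulRight, hπ]

theorem av_absl {E : M} (hE : ∀ g, π g * E = E) : ((Nat.card H : ℂ)⁻¹ • ∑ x, π x) * E = E := by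
  simp only [smul_mul_assoc, Finset.sum_mul, hE, Finset.sum_const, Finset.card_univ,
    ← Nat.card_eq_fintype_card, ← Nat.cast_smul_eq_nsmul ℂ]
  exact inv_smul_smul₀ (card_ne_zero_complex H) E

theorem av_absr {E : M} (hE : ∀ g, E * π g = E) : E * ((Nat.card H : ℂ)⁻¹ • ∑ x, π x) = E := by
  simp only [mul_smul_comm, Finset.mul_sum, hE, Finset.sum_const, Finset.card_univ,
    ← Nat.card_eq_fintype_card, ← Nat.cast_smul_eq_nsmul ℂ]
  exact inv_smul_smul₀ (card_ne_zero_complex H) E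

end av

variable {F V : Type*} [Field F] [Fintype F] [AddCommGroup V] [Module F V] [Fintype V] {σ : F →+* F}
  {B : V →ₛₗ[σ] V →ₗ[F] F} {ε : AddChar F ℂ} {W : Type*} [AddCommGroup W] [Module ℂ W]
  [FiniteDimensional ℂ W] {h : V → End ℂ W} {ρ : UG B →* End ℂ W} {q : ℕ}
  {G : Subgroup (V ≃ₗ[F] V)}

noncomputable instance fintypeMu (q : ℕ) (F : Type*) [Field F] [Finite F] : Fintype (Mu q F) :=
  Fintype.ofFinite _

/-- restriction of the Weil representation -/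
def rG (ρ : UG B →* End ℂ W) (hG : G ≤ UG B) : G →* End ℂ W := ρ.comp (Subgroup.inclusion hG)

/-- restriction of the Weil character -/
noncomputable def th (ρ : UG B →* End ℂ W) (hG : G ≤ UG B) (g : G) : ℂ := trace ℂ W (rG ρ hG g)

/-- projection to an eigenspace of the scalars -/
noncomputable def Pj (hσ : IsBar q σ) (ρ : UG B →* End ℂ W) (ω : Mu q F → ℂ) : End ℂ W :=
  (Nat.card (Mu q F) : ℂ)⁻¹ • ∑ c, conj (ω c) • ρ ⟨scl q F V c, scl_mem_UG hσ B c⟩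

/-- projection to the eigenspace of a linear character -/
noncomputable def Ev [Fintype G] (ρ : UG B →* End ℂ W) (hG : G ≤ UG B) (l : G →* ℂˣ) : End ℂ W :=
  (Nat.card G : ℂ)⁻¹ • ∑ g, ((l g)⁻¹ : ℂˣ) • rG ρ hG g

theorem th_char (hG : G ≤ UG B) : IsCharacter G (th ρ hG) := by
  exact isCharacter_character (rG ρ hG)

theorem sclG_cen (hZ : ∀ c, scl q F V c ∈ G) (c : Mu q F) : sclG hZ c ∈ Subgroup.center G := by
  exact Subgroup.mem_center_iff.2 fun g => Subtype.ext (LinearEquiv.ext fun v => map_smul g.1 _ v)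

variable (hσ : IsBar q σ)

theorem Pj_comm (ω : Mu q F → ℂ) (g : UG B) : Pj hσ ρ ω * ρ g = ρ g * Pj hσ ρ ω := by
  have : ∀ c, (⟨scl q F V c, scl_mem_UG hσ B c⟩ : UG B) * g = g * ⟨scl q F V c, scl_mem_UG hσ B c⟩ :=
    fun c => (Subgroup.mem_center_iff.1 (sclG_cen (scl_mem_UG hσ B) c) g).symm
  simp only [Pj, smul_mul_assoc, mul_smul_comm, Finset.sum_mul, Finset.mul_sum, ← map_mul, this]

theorem Pj_idem (ω : IrrCharacter (Mu q F)) : Pj hσ ρ ω.1 * Pj hσ ρ ω.1 = Pj hσ ρ ω.1 := by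
  have hC : IsMulCommutative (Mu q F) := ⟨⟨mul_comm⟩⟩
  refine av_absl (av_left fun a b => ?_)
  rw [ω.2.isCharacter.map_mul_of_apply_one ω.2.apply_one_of_comm, map_mul, smul_mul_smul_comm,
    ← map_mul ρ]
  exact congrArg (fun g => _ • ρ g) (Subtype.ext (map_mul _ a b))

theorem cp_th (hG : G ≤ UG B) (hZ : ∀ c, scl q F V c ∈ G) (ω : Mu q F → ℂ) (g : G) :
    cp (sclG hZ) (th ρ hG) ω g = trace ℂ W (Pj hσ ρ ω * rG ρ hG g) := by
  simp only [cp, th, Pj, smul_mul_assoc, Finset.sum_mul, map_smul, map_sum, map_mul, smul_eq_mul]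
  rfl

variable [Fintype G] {hG : G ≤ UG B}

omit hσ in
theorem Ev_aux (l : G →* ℂˣ) (a b : G) : ((l (a * b))⁻¹ : ℂˣ) • rG ρ hG (a * b) =
    (((l a)⁻¹ : ℂˣ) • rG ρ hG a) * (((l b)⁻¹ : ℂˣ) • rG ρ hG b) := by
  rw [map_mul, map_mul, smul_mul_smul_comm, mul_inv]

omit hσ in
theorem rG_Ev (l : G →* ℂˣ) (g : G) :
    rG ρ hG g * Ev ρ hG l = l g • Ev ρ hG l ∧ Ev ρ hG l * rG ρ hG g = l g • Ev ρ hG l := by
  have a := av_left (π := fun g => ((l g)⁻¹ : ℂˣ) • rG ρ hG g) (Ev_aux l) g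
  have b := av_right (π := fun g => ((l g)⁻¹ : ℂˣ) • rG ρ hG g) (Ev_aux l) g
  rw [smul_mul_assoc, inv_smul_eq_iff] at a
  rw [mul_smul_comm, inv_smul_eq_iff] at b
  exact ⟨a, b⟩

omit hσ in
theorem Ev_idem (l : G →* ℂˣ) : Ev ρ hG l * Ev ρ hG l = Ev ρ hG l := by
  exact av_absl (av_left (π := fun g => ((l g)⁻¹ : ℂˣ) • rG ρ hG g) (Ev_aux l))

omit hσ in
/-- `trace (E h (g v)) = trace (E ρ g h v ρ g⁻¹) = trace (ρ g⁻¹ E ρ g h v)` -/
theorem Ev_inv (D : WD B ε h ρ) (l : G →* ℂˣ) {g : V ≃ₗ[F] V} (hg : g ∈ G) (v : V) :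
    trace ℂ W (Ev ρ hG l * h (g v)) = trace ℂ W (Ev ρ hG l * h v) := by
  have e : h (g v) = rG ρ hG ⟨g, hg⟩ * h v * rG ρ hG ⟨g, hg⟩⁻¹ := by
    rw [show rG ρ hG ⟨g, hg⟩ * h v = h (g v) * rG ρ hG ⟨g, hg⟩ from D.cj ⟨g, hG hg⟩ v, mul_assoc,
      ← map_mul, mul_inv_cancel, map_one, mul_one]
  rw [e, ← mul_assoc, trace_mul_comm, ← mul_assoc, ← mul_assoc, (rG_Ev l _).1, smul_mul_assoc,
    (rG_Ev l _).2, smul_smul, ← map_mul, inv_mul_cancel, map_one, one_smul]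

/-- the `ω`-component splits as `l + χ` -/
structure Ln (ρ : UG B →* End ℂ W) (hG : G ≤ UG B) (hZ : ∀ c, scl q F V c ∈ G)
    (ω : IrrCharacter (Mu q F)) (l : G →* ℂˣ) (χ : IrrCharacter G) : Prop where
  ne : χ.1 1 ≠ 1
  eq : ∀ g, cp (sclG hZ) (th ρ hG) ω.1 g = l g + χ.1 g

namespace Ln

variable {hZ : ∀ c, scl q F V c ∈ G} {ω ω' : IrrCharacter (Mu q F)} {l l' : G →* ℂˣ}
  {χ χ' : IrrCharacter G} (L : Ln ρ hG hZ ω l χ)
include L

theorem inner_l : classInner χ.1 (fun g => (l g : ℂ)) = 0 :=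
  χ.2.inner_eq_zero_of_ne (isIrrCharacter_hom l) fun e => L.ne (by simp [e])

/-- `cp_cen`, take the inner product with `l` -/
theorem cen (c : Mu q F) : (l (sclG hZ c) : ℂ) = ω.1 c := by
  have a : ((l (sclG hZ c) : ℂ) - ω.1 c) • (fun g => (l g : ℂ)) =
      (ω.1 c - χ.1 (sclG hZ c) / χ.1 1) • χ.1 := funext fun g => by
    have := cp_cen (θ := th ρ hG) (sclG_cen hZ) ω c g
    rw [L.eq, L.eq, CKS.irr_central χ (sclG_cen hZ c), map_mul, Units.val_mul] at this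
    simp only [Pi.smul_apply, smul_eq_mul]
    linear_combination this
  have b := congrArg (fun f => classInner f fun g => (l g : ℂ)) a
  simp only [classInner_smul_left, L.inner_l, (isIrrCharacter_hom l).inner_self] at b
  linear_combination b

include hσ

theorem Pj_Ev : Pj hσ ρ ω.1 * Ev ρ hG l = Ev ρ hG l ∧ Ev ρ hG l * Pj hσ ρ ω.1 = Ev ρ hG l := by
  have a : ∀ c, conj (ω.1 c) • l (sclG hZ c) • Ev ρ hG l = Ev ρ hG l := fun c => by
    rw [← L.cen, conj_hom_apply, Units.smul_def, smul_smul, ← Units.val_mul, ← map_mul,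
      inv_mul_cancel, map_one, Units.val_one, one_smul]
  refine ⟨av_absl fun c => ?_, av_absr fun c => ?_⟩
  · rw [smul_mul_assoc]
    exact (congrArg _ (rG_Ev l (sclG hZ c)).1).trans (a c)
  · rw [mul_smul_comm]
    exact (congrArg _ (rG_Ev l (sclG hZ c)).2).trans (a c)

theorem tr_Pj (g : G) : trace ℂ W (Pj hσ ρ ω.1 * rG ρ hG g) = l g + χ.1 g := by
  rw [← cp_th hσ hG hZ, L.eq]

/-- `trace (Pj Ev) = ⟨l + χ, l⟩ = 1` -/
theorem trace_Ev : trace ℂ W (Ev ρ hG l) = 1 := by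
  have a := classInner_add_left (fun g => (l g : ℂ)) χ.1 fun g => (l g : ℂ)
  rw [L.inner_l, (isIrrCharacter_hom l).inner_self, add_zero, classInner_def] at a
  rw [← (L.Pj_Ev hσ).1, ← a]
  simp only [Ev, mul_smul_comm, Finset.mul_sum, Units.smul_def, map_smul, map_sum, L.tr_Pj hσ,
    smul_eq_mul, conj_hom_apply, map_inv, Pi.add_apply, mul_comm (_ + _ : ℂ)]

/-- `𝒜 X = |G|⁻¹ ∑ l g (l' g)⁻¹ ρ g Π' X Π ρ g⁻¹` is an idempotent of `End (End W)` of trace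
`⟨1 + χ' l'⁻¹, 1 + χ l⁻¹⟩ = 1` (`trace_lr`, `cp_th`, `IsIrrCharacter.mul_of_apply_one`);
`ℰ X = E' X E` is an idempotent of trace one with `𝒜 ℰ = ℰ 𝒜 = ℰ`; `idem_eq`. -/
theorem avg (L' : Ln ρ hG hZ ω' l' χ')
    (hne : ¬ ∀ g, χ.1 g * ((l g)⁻¹ : ℂˣ) = χ'.1 g * ((l' g)⁻¹ : ℂˣ)) (X : End ℂ W) :
    Ev ρ hG l' * X * Ev ρ hG l = (Nat.card G : ℂ)⁻¹ • ∑ g, (l g * (l' g)⁻¹) •
      (rG ρ hG g * Pj hσ ρ ω'.1 * X * (Pj hσ ρ ω.1 * rG ρ hG g⁻¹)) := by
  have cm : ∀ (ω : Mu q F → ℂ) (g : G), Pj hσ ρ ω * rG ρ hG g = rG ρ hG g * Pj hσ ρ ω :=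
    fun ω g => Pj_comm hσ ω _
  have ml : ∀ (ω : IrrCharacter (Mu q F)) (a b : G), Pj hσ ρ ω.1 * rG ρ hG (a * b) =
      Pj hσ ρ ω.1 * rG ρ hG a * (Pj hσ ρ ω.1 * rG ρ hG b) := fun ω a b => by
    rw [← mul_assoc, mul_assoc _ (rG ρ hG a), ← cm, ← mul_assoc, Pj_idem, map_mul, mul_assoc]
  let π : G → End ℂ (End ℂ W) := fun g => ((l g * (l' g)⁻¹ : ℂˣ) : ℂ) •
    (mulLeft ℂ (Pj hσ ρ ω'.1 * rG ρ hG g) * mulRight ℂ (Pj hσ ρ ω.1 * rG ρ hG g⁻¹))
  have hπ : ∀ a b, π (a * b) = π a * π b := fun a b => by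
    rw [smul_mul_smul_comm, ← Units.val_mul, mul_mul_mul_comm, ← mul_inv, ← map_mul, ← map_mul]
    refine congrArg (_ • ·) (LinearMap.ext fun X => ?_)
    simp only [End.mul_apply, mulLeft_apply, mulRight_apply, mul_inv_rev, ml, mul_assoc]
  have a1 : ∀ {ω l χ}, Ln ρ hG hZ ω l χ → ∀ g, Pj hσ ρ ω.1 * rG ρ hG g * Ev ρ hG l =
      (l g : ℂ) • Ev ρ hG l ∧ Ev ρ hG l * (Pj hσ ρ ω.1 * rG ρ hG g) = (l g : ℂ) • Ev ρ hG l :=
    fun L g => by
      rw [mul_assoc, (rG_Ev _ g).1, mul_smul_comm, (L.Pj_Ev hσ).1, ← mul_assoc, (L.Pj_Ev hσ).2,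
        (rG_Ev _ g).2]
      exact ⟨rfl, rfl⟩
  have a2 : ∀ g, ((l g * (l' g)⁻¹ : ℂˣ) : ℂ) * ((l g⁻¹ : ℂ) * l' g) = 1 := fun g => by
    simp only [map_inv, Units.val_mul, Units.val_inv_eq_inv_val]
    field_simp
  have ir : ∀ {ω l χ}, Ln ρ hG hZ ω l χ → IsIrrCharacter G (fun g => ((l⁻¹ g : ℂˣ) : ℂ) * χ.1 g) ∧
      (fun g => ((l⁻¹ g : ℂˣ) : ℂ) * χ.1 g) ≠ fun _ => 1 := fun {ω l χ} L =>
    ⟨χ.2.hom_mul l⁻¹, fun e => L.ne (by simpa using congrFun e 1)⟩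
  have key := idem_eq (W := End ℂ W) (E := mulLeft ℂ (Ev ρ hG l') * mulRight ℂ (Ev ρ hG l))
    (av_absl (av_left hπ)) (LinearMap.ext fun X => ?_) (av_absl fun g => LinearMap.ext fun X => ?_)
    (av_absr fun g => LinearMap.ext fun X => ?_) ?_
  · have := LinearMap.congr_fun key.symm X
    simpa only [π, End.mul_apply, mulLeft_apply, mulRight_apply, LinearMap.smul_apply,
      LinearMap.sum_apply, mul_assoc, ← cm, Units.smul_def] using this
  · simp only [End.mul_apply, mulLeft_apply, mulRight_apply, ← mul_assoc, Ev_idem]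
    rw [mul_assoc, Ev_idem]
  · simp only [π, End.mul_apply, mulLeft_apply, mulRight_apply, LinearMap.smul_apply]
    rw [mul_assoc (Ev ρ hG l'), mul_assoc X, (a1 L _).2, ← mul_assoc, (a1 L' _).1, smul_mul_assoc,
      mul_smul_comm, mul_smul_comm, smul_smul, smul_smul, mul_assoc, mul_comm (l' g : ℂ), a2,
      one_smul]
  · simp only [π, End.mul_apply, mulLeft_apply, mulRight_apply, LinearMap.smul_apply,
      mul_smul_comm]
    rw [mul_assoc _ (X * _), mul_assoc X, (a1 L _).1, ← mul_assoc, (a1 L' _).2, smul_mul_assoc,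
      mul_smul_comm, mul_smul_comm, smul_smul, smul_smul, mul_assoc, mul_comm (l' g : ℂ), a2,
      one_smul]
  · have b := classInner_def ((fun _ => 1) + fun g => ((l'⁻¹ g : ℂˣ) : ℂ) * χ'.1 g)
      ((fun _ => 1) + fun g => ((l⁻¹ g : ℂˣ) : ℂ) * χ.1 g)
    rw [classInner_add_left, classInner_add_right, classInner_add_right,
      isIrrCharacter_one.inner_self, (ir L').1.inner_eq_zero_of_ne isIrrCharacter_one
      (ir L').2, isIrrCharacter_one.inner_eq_zero_of_ne (ir L).1 (ir L).2.symm,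
      (ir L').1.inner_eq_zero_of_ne (ir L).1 fun e => hne fun g => by
        simpa [mul_comm] using (congrFun e g).symm] at b
    simp only [π, map_smul, map_sum, trace_lr, L.trace_Ev hσ, L'.trace_Ev hσ, L.tr_Pj hσ,
      L'.tr_Pj hσ, smul_eq_mul]
    refine Eq.trans ?_ (b.symm.trans (by ring))
    refine congrArg _ (Finset.sum_congr rfl fun g _ => ?_)
    simp only [Pi.add_apply, map_add, map_mul, map_one, conj_hom_apply, ← χ.2.apply_inv]
    simp only [MonoidHom.inv_apply, map_inv, inv_inv, Units.val_mul, Units.val_inv_eq_inv_val]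
    field_simp

/-- `twirl` with `X = E' h y`, `Y = E h x`; each term is `trace (E' (h y h v) E (h x h (-v)))`; expand
by `avg` and the definition of `Pj`; `WD.integral`; values of linear characters are roots of unity. -/
theorem pair (D : WD B ε h ρ) (hB : IsHerm σ B) (h2 : (2 : F) ≠ 0) (L' : Ln ρ hG hZ ω' l' χ')
    (hne : ¬ ∀ g, χ.1 g * ((l g)⁻¹ : ℂˣ) = χ'.1 g * ((l' g)⁻¹ : ℂˣ)) (x y : V) :
    IsIntegral ℤ ((finrank ℂ W * Nat.card G * Nat.card (Mu q F) ^ 2 : ℕ) *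
      (trace ℂ W (Ev ρ hG l * h x) * trace ℂ W (Ev ρ hG l' * h y))) := by
  have t := D.twirl hB h2 (Ev ρ hG l' * h y) (Ev ρ hG l * h x)
  rw [Nat.cast_mul, Nat.cast_mul, mul_assoc (finrank ℂ W : ℂ), mul_comm (finrank ℂ W : ℂ), mul_assoc,
    mul_comm (trace ℂ W _), ← t, Finset.mul_sum]
  refine IsIntegral.sum _ fun v _ => ?_
  have c1 := card_ne_zero_complex G
  have c2 := card_ne_zero_complex (Mu q F)
  rw [show Ev ρ hG l' * h y * h v * (Ev ρ hG l * h x) * h (-v) =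
    Ev ρ hG l' * (h y * h v) * Ev ρ hG l * (h x * h (-v)) by simp only [mul_assoc],
    L.avg hσ L' hne, smul_mul_assoc, map_smul, smul_eq_mul, mul_mul_mul_comm, mul_inv_cancel₀ c1,
    one_mul, Finset.sum_mul, map_sum, Finset.mul_sum]
  refine IsIntegral.sum _ fun g _ => ?_
  simp only [Pj, Units.smul_def, smul_mul_assoc, mul_smul_comm, map_smul, smul_eq_mul]
  rw [show ∀ a t : ℂ, ((Nat.card (Mu q F) ^ 2 : ℕ) : ℂ) * (a * ((Nat.card (Mu q F) : ℂ)⁻¹ *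
    ((Nat.card (Mu q F) : ℂ)⁻¹ * t))) = a * t from fun a t => by push_cast; field_simp]
  refine ((isCharacter_hom (l * l'⁻¹)).isIntegral g).mul ?_
  simp only [Finset.sum_mul, Finset.mul_sum, map_sum, smul_mul_assoc, mul_smul_comm, map_smul,
    smul_eq_mul, rG, MonoidHom.comp_apply, ← map_mul ρ]
  exact IsIntegral.sum _ fun c _ => IsIntegral.sum _ fun c' _ =>
    (ω.2.conj.isIntegral _).mul ((ω'.2.conj.isIntegral _).mul (D.integral hB _ _ _ _ _ _))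

end Ln

end Cfsg.Lib.US7
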