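import Cfsg.Agent.Lib.US7.Def
import Cfsg.Agent.Lib.CharDeg.Weil

/-! # Existence of Weil data in odd characteristic -/

set_option autoImplicit false

namespace Cfsg.Lib.US7

open Module Cfsg.Lib.Unitary

variable {F V : Type*} [Field F] [Fintype F] [AddCommGroup V] [Module F V] [Fintype V] {σ : F →+* F}
  {B : V →ₛₗ[σ] V →ₗ[F] F} {q : ℕ}

/-- Let `p = char F`, `δ ≠ 0` skew (`σ δ = -δ`), `t x = Tr_{F/ZMod p} (δ x)`; `t (σ x) = - t x`
(the trace is invariant under `σ`), `t ≠ 0`.  `ω u v = t (B u v)` is a non-degenerate alternating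
`ZMod p`-bilinear form on `V`; take a symplectic basis (search `Lib` for one), i.e. a `ZMod p`-linear
`e : V ≃ (l ⊕ l → ZMod p)` with `- bil l _ (e u) (e v) = ω u v`; `ψ ≠ 1` an additive character of
`ZMod p`, `ε = ψ ∘ t`, `h v = heis ψ (e v)`, `ρ g = W (matrix of e g e⁻¹)` with `W` from
`CharDeg/Weil.exists_weil` (`heis_mul heis_zero trace_heis Impl`). -/
theorem exists_wd (hσ : IsBar q σ) (hB : IsHerm σ B) (h2 : (2 : F) ≠ 0) :
    ∃ (ε : AddChar F ℂ) (m : ℕ) (h : V → End ℂ (Fin m → ℂ)) (ρ : UG B →* End ℂ (Fin m → ℂ)),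
      WD B ε h ρ := by
  classical
  obtain ⟨p, hp⟩ := CharP.exists F
  haveI : Fact p.Prime := ⟨CharP.char_is_prime F p⟩
  letI := ZMod.algebra F p
  letI : Module (ZMod p) V := Module.compHom V (algebraMap (ZMod p) F)
  haveI : IsScalarTower (ZMod p) F V := IsScalarTower.of_compHom (ZMod p) F V
  have h2' : (2 : ZMod p) ≠ 0 := fun e => h2 (by rw [← map_ofNat (algebraMap (ZMod p) F) 2, e, map_zero])
  obtain ⟨δ, δ0, hδ⟩ := hσ.exists_skew
  obtain ⟨t₀, ht₀⟩ : ∃ t₀ : Dual (ZMod p) F, t₀ (δ - σ δ) ≠ 0 := not_forall.1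
    ((forall_dual_apply_eq_zero_iff (ZMod p) _).not.2 (by rw [hδ, sub_neg_eq_add, ← two_mul]; exact mul_ne_zero h2 δ0))
  let t : F →+ ZMod p := t₀.toAddMonoidHom.comp (AddMonoidHom.id F - (σ : F →+ F))
  have t1 : ∀ x, σ x = x → t x = 0 := fun x e => by
    change t₀ (x - σ x) = 0
    rw [e, sub_self, map_zero]
  let ω : LinearMap.BilinForm (ZMod p) V := LinearMap.mk₂ (ZMod p) (fun u v => -t (B u v))
    (fun a b v => by rw [map_add, LinearMap.add_apply, map_add, neg_add])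
    (fun c u v => ZMod.map_smul (-t.comp (B.flip v).toAddMonoidHom) c u)
    (fun u a b => by rw [map_add, map_add, neg_add])
    (fun c u v => ZMod.map_smul (-t.comp (B u).toAddMonoidHom) c v)
  have hA : ω.IsAlt := fun v => neg_eq_zero.2 (t1 _ (hB.self_fixed v))
  have hL : ∀ u, (∀ v, ω u v = 0) → u = 0 := fun u h => by
    by_contra u0
    obtain ⟨v, hv⟩ := hB.exists_eq_one u0
    have := neg_eq_zero.1 (h (δ • v))
    rw [map_smul, hv, smul_eq_mul, mul_one] at this
    exact ht₀ this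
  have hN : ω.Nondegenerate := ⟨hL, fun u h => hL u fun v => hA.isRefl _ _ (h v)⟩
  obtain ⟨m, hm⟩ := Symp.even_finrank hA hN
  obtain ⟨e, he⟩ := Symp.exists_isometry_of_finrank_eq hA hN (Symp.bil_isAlt (Fin m) (ZMod p))
    (Symp.bil_nondegenerate (Fin m) (ZMod p)) (by rw [Symp.finrank_std, Fintype.card_fin, hm, two_mul])
  have hψ : AddChar.FiniteField.primitiveChar_to_Complex (ZMod p) ≠ 1 := by
    simpa using AddChar.FiniteField.primitiveChar_to_Complex_isPrimitive (ZMod p) one_ne_zero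
  have hψ' := AddChar.FiniteField.primitiveChar_to_Complex_isPrimitive (ZMod p)
  generalize AddChar.FiniteField.primitiveChar_to_Complex (ZMod p) = ψ at hψ hψ'
  obtain ⟨W, hW⟩ := CharDeg.exists_weil (l := Fin m) hψ h2'
  let r : UG B →* Symp.isom ω := MonoidHom.mk'
    (fun g => ⟨g.1.restrictScalars (ZMod p), fun u v => congrArg (fun x => -t x) (g.2 u v)⟩) fun _ _ => rfl
  let s : UG B →* Matrix.symplecticGroup (Fin m) (ZMod p) :=
    ((Symp.isomCongr e he).trans (Symp.spEquiv _ _).symm).toMonoidHom.comp r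
  have hs : ∀ g v, (s g).1.mulVec (e v) = e (g.1 v) := fun g v =>
    (Symp.spEquiv_symm_mulVec _ _).trans (congrArg (fun x => e (g.1 x)) (e.symm_apply_apply v))
  let c := (LinearEquiv.ofFinrankEq ((Fin m → ZMod p) → ℂ) (Fin (p ^ m) → ℂ) (R := ℂ) (by simp)).conjAlgEquiv ℂ
  refine ⟨ψ.compAddMonoidHom t, p ^ m, fun v => c (CharDeg.heis ψ (e v)),
    ⟨⟨fun g => c (W (s g)).1, by rw [map_one, map_one, OneMemClass.coe_one, map_one]⟩,
      fun a b => by simp only [map_mul, MulMemClass.coe_mul]⟩,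
    ?_, fun x hx => ?_, ?_, fun u v => ?_,
    fun v v0 => ?_, ?_, fun g v => ?_⟩
  · exact AddChar.ne_one_iff.2 ⟨δ, fun f => ht₀ ((hψ'.zmod_char_eq_one_iff p _).1 f)⟩
  · rw [AddChar.compAddMonoidHom_apply, t1 x hx, AddChar.map_zero_eq_one]
  · rw [map_zero, CharDeg.heis_zero, map_one]
  · rw [← map_mul, CharDeg.heis_mul, map_smul, he, map_add]
    exact congrArg (fun x => ψ x • _) (neg_neg _)
  · rw [show c (CharDeg.heis ψ (e v)) = LinearEquiv.conj _ (CharDeg.heis ψ (e v)) from rfl, LinearMap.trace_conj',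
      CharDeg.trace_heis hψ h2', if_neg ((map_ne_zero_iff e e.injective).2 v0)]
  · rw [Nat.card_congr e.toEquiv]; simp [sq, pow_add]
  · change c (W (s g)).1 * c _ = c _ * c (W (s g)).1
    rw [← map_mul, ← map_mul, hW, hs]

end Cfsg.Lib.US7
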