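import Cfsg.Agent.Lib.CK.SF
import Cfsg.Agent.Lib.CK.SH
import Cfsg.Agent.Lib.Unitary.Glue
import Cfsg.Agent.Lib.Unitary.Gen

/-!
# Singer normalisers in unitary groups of prime degree: definitions

`V` hermitian of odd prime dimension `n` over `F = F_(q²)`; model `V = K = F_(q^(2n))`,
`B u v = Tr (u^(q^n) v)`.  `d = gcd (n, q+1)`, `(q+1) d τ = q^n + 1`.
-/

set_option autoImplicit false

namespace Cfsg.Lib.US7

open Module Cfsg.Lib.Unitary ComplexConjugate

/-- the arithmetic data -/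
structure Nm (q n d τ : ℕ) : Prop where
  prime : n.Prime
  seven : 7 ≤ n
  two : 2 ≤ q
  mul : (q + 1) * (d * τ) = q ^ n + 1
  gcd : d = Nat.gcd n (q + 1)

section herm

variable {F V : Type*} [Field F] [AddCommGroup V] [Module F V] {σ : F →+* F}

/-- `G` has the same orbits on vectors as the full unitary group -/
def Tr (B : V →ₛₗ[σ] V →ₗ[F] F) (G : Subgroup (V ≃ₗ[F] V)) : Prop :=
  ∀ x y, x ≠ 0 → y ≠ 0 → B x x = B y y → ∃ g ∈ G, g x = y

/-- scalars of norm one -/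
abbrev Mu (q : ℕ) (F : Type*) [Field F] := rootsOfUnity (q + 1) F

/-- the scalar maps -/
def scl (q : ℕ) (F V : Type*) [Field F] [AddCommGroup V] [Module F V] : Mu q F →* (V ≃ₗ[F] V) :=
  (DistribMulAction.toModuleAut F V).comp (Mu q F).subtype

@[simp] theorem scl_apply {q : ℕ} (c : Mu q F) (v : V) : scl q F V c v = ((c : Fˣ) : F) • v := rfl

/-- the scalar maps inside a subgroup -/
def sclG {q : ℕ} {G : Subgroup (V ≃ₗ[F] V)} (hZ : ∀ c, scl q F V c ∈ G) : Mu q F →* G :=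
  (scl q F V).codRestrict G hZ

theorem scl_mem_UG {q : ℕ} (hσ : IsBar q σ) (B : V →ₛₗ[σ] V →ₗ[F] F) (c : Mu q F) :
    scl q F V c ∈ UG B := fun u v => by
  have : ((c : Fˣ) : F) ^ (q + 1) = 1 := by
    rw [← Units.val_pow_eq_pow_val, (mem_rootsOfUnity _ _).1 c.2, Units.val_one]
  simp only [scl_apply, LinearMap.map_smulₛₗ, LinearMap.smul_apply, map_smul, smul_eq_mul]
  rw [← mul_assoc, hσ.norm_eq, this, one_mul]

/-- Weil data: a Heisenberg basis `h` of `End W` and a representation `ρ` of `GU` permuting it -/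
structure WD (B : V →ₛₗ[σ] V →ₗ[F] F) (ε : AddChar F ℂ) {W : Type*} [AddCommGroup W] [Module ℂ W]
    (h : V → End ℂ W) (ρ : UG B →* End ℂ W) : Prop where
  ne : ε ≠ 1
  fix : ∀ x, σ x = x → ε x = 1
  zero : h 0 = 1
  mul : ∀ u v, h u * h v = ε (B u v) • h (u + v)
  tr : ∀ v, v ≠ 0 → LinearMap.trace ℂ W (h v) = 0
  dim : finrank ℂ W ^ 2 = Nat.card V
  cj : ∀ (g : UG B) v, ρ g * h v = h (g.1 v) * ρ g

end herm

section chars

variable {G C : Type*} [Group G] [Group C] [Fintype C]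

/-- the `ω`-component of a class function with respect to the central subgroup `ι C` -/
noncomputable def cp (ι : C →* G) (θ : G → ℂ) (ω : C → ℂ) (g : G) : ℂ :=
  (Nat.card C : ℂ)⁻¹ * ∑ c, conj (ω c) * θ (ι c * g)

/-- a linear character trivial on `A` plus a non-linear irreducible character -/
def Spl (A : Subgroup G) (θ : G → ℂ) : Prop :=
  ∃ (l : G →* ℂˣ) (χ : IrrCharacter G), A ≤ l.ker ∧ χ.1 1 ≠ 1 ∧ ∀ g, θ g = l g + χ.1 g

end chars

section model

variable (F K : Type*) [Field F] [Field K] [Algebra F K]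

/-- multiplication by a unit -/
def mu : Kˣ →* (K ≃ₗ[F] K) := DistribMulAction.toModuleAut F K

variable {F K} in
@[simp] theorem mu_apply (u : Kˣ) (v : K) : mu F K u v = u * v := rfl

/-- multiplications by `m`-th roots of unity -/
def Sc (m : ℕ) : Subgroup (K ≃ₗ[F] K) := (powMonoidHom m : Kˣ →* Kˣ).ker.map (mu F K)

variable {F K} in
theorem mem_Sc {m : ℕ} {g : K ≃ₗ[F] K} : g ∈ Sc F K m ↔ ∃ u : Kˣ, u ^ m = 1 ∧ ∀ v, g v = u * v :=
  ⟨fun ⟨u, hu, e⟩ => ⟨u, hu, fun v => e ▸ rfl⟩, fun ⟨u, hu, e⟩ =>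
    ⟨u, hu, LinearEquiv.ext fun v => (e v).symm⟩⟩

/-- the maps normalising the multiplications -/
def Nn : Subgroup (K ≃ₗ[F] K) := Subgroup.normalizer ((mu F K).range : Set (K ≃ₗ[F] K))

variable {F K} {σ : F →+* F}

/-- the model -/
structure Md (q n d τ : ℕ) (s : K →+* K) (B : K →ₛₗ[σ] K →ₗ[F] F) : Prop extends Nm q n d τ where
  bar : IsBar q σ
  barK : IsBar (q ^ n) s
  rank : finrank F K = n
  form : ∀ u v, B u v = Algebra.trace F K (s u * v)

/-- overgroups of the torus of order `τ (q + 1)` which are not semilinear -/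
structure Ov (q τ : ℕ) (B : K →ₛₗ[σ] K →ₗ[F] F) (G : Subgroup (K ≃ₗ[F] K)) : Prop where
  le : G ≤ UG B
  sc : Sc F K (τ * (q + 1)) ≤ G
  nrm : ∀ g ∈ G, ∀ (b : K) (j : ℕ), (∀ v, g v = b * v ^ (q ^ 2) ^ j) → b ^ (τ * (q + 1)) = 1
  ne : ¬ G ≤ Nn F K

end model

end Cfsg.Lib.US7
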