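import Cfsg.Agent.Lib.US7.Def
import Cfsg.Agent.Lib.Char.FrobSchur
import Cfsg.Agent.Lib.CharDeg.PermChar

/-! # Weil data: trace identities -/

set_option autoImplicit false
set_option linter.unusedSectionVars false

namespace Cfsg.Lib.US7

open Module Cfsg.Lib.Unitary LinearMap

section idem

variable {W : Type*} [AddCommGroup W] [Module ℂ W] [FiniteDimensional ℂ W]

/-- the trace of an idempotent is its rank (`LinearMap.IsProj.trace`) -/
theorem idem_zero {E : End ℂ W} (h : E * E = E) (h0 : trace ℂ W E = 0) : E = 0 := by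
  exact IsIdempotentElem.eq_zero_of_trace_eq_zero h h0

/-- `A - E` is an idempotent of trace zero -/
theorem idem_eq {A E : End ℂ W} (hA : A * A = A) (hE : E * E = E) (h1 : A * E = E) (h2 : E * A = E)
    (ht : trace ℂ W A = trace ℂ W E) : A = E := by
  refine sub_eq_zero.1 (idem_zero ?_ (by rw [map_sub, ht, sub_self]))
  rw [sub_mul, mul_sub, mul_sub, hA, hE, h1, h2, sub_self, sub_zero]

/-- an idempotent of trace one has range `ℂ x` for each non-zero fixed `x` -/
theorem idem_one' {E : End ℂ W} (h : E * E = E) (h1 : trace ℂ W E = 1) {x : W} (hx : E x = x)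
    (h0 : x ≠ 0) (y : W) : ∃ c : ℂ, E y = c • x := by
  rw [(LinearMap.IsIdempotentElem.isProj_range E h).trace, Nat.cast_eq_one] at h1
  obtain ⟨c, hc⟩ := (finrank_eq_one_iff_of_nonzero' (⟨x, x, hx⟩ : range E)
    fun e => h0 (congrArg Subtype.val e)).1 h1 ⟨E y, y, rfl⟩
  exact ⟨c, (congrArg Subtype.val hc).symm⟩

/-- rank one: `range E = ℂ w`, `E v = f v • w` with `f w = 1`, `trace (E X) = f (X w)` -/
theorem idem_one {E : End ℂ W} (h : E * E = E) (h1 : trace ℂ W E = 1) (X : End ℂ W) :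
    E * X * E = trace ℂ W (E * X) • E := by
  obtain ⟨y, hy⟩ : ∃ y, E y ≠ 0 := by
    by_contra! e
    rw [show E = 0 from LinearMap.ext e, map_zero] at h1
    exact zero_ne_one h1
  have hx : E (E y) = E y := LinearMap.congr_fun h y
  obtain ⟨f, hf⟩ := Module.Projective.exists_dual_eq_one ℂ hy
  have e : ∀ z, E z = f (E z) • E y := fun z => by
    obtain ⟨c, hc⟩ := idem_one' h h1 hx hy z
    rw [hc, map_smul, hf, smul_eq_mul, mul_one]
  have e2 : E * X = (f ∘ₗ (E * X)).smulRight (E y) := LinearMap.ext fun z => e _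
  rw [e2, trace_smulRight, ← e2]
  ext z
  simp only [End.mul_apply, comp_apply, LinearMap.smul_apply]
  rw [e z, map_smul, map_smul, e (X (E y)), smul_comm, map_smul, hf, smul_eq_mul, mul_one]

/-- trace of `X ↦ A X B` (matrix units, or `End W = W ⊗ W*`) -/
theorem trace_lr (A C : End ℂ W) :
    trace ℂ (End ℂ W) (mulLeft ℂ A * mulRight ℂ C) = trace ℂ W A * trace ℂ W C := by
  obtain ⟨a, rfl⟩ := (dualTensorHomEquiv ℂ W W).surjective A
  obtain ⟨c, rfl⟩ := (dualTensorHomEquiv ℂ W W).surjective C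
  have l : ∀ A : End ℂ W, mulLeft ℂ A = LinearMap.mul ℂ _ A := fun _ => rfl
  have r : ∀ A : End ℂ W, mulRight ℂ A = (LinearMap.mul ℂ _).flip A := fun _ => rfl
  have s : ∀ f x, dualTensorHomEquiv ℂ W W (f ⊗ₜ x) = f.smulRight x := fun f x => by ext; simp
  rw [l, r]
  induction a with
  | zero => simp
  | add a b ha hb => simp only [map_add, add_mul, ha, hb]
  | tmul f x =>
    induction c with
    | zero => simp
    | add a b ha hb => simp only [map_add, mul_add, ha, hb]
    | tmul g y =>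
      rw [s, s, show LinearMap.mul ℂ (End ℂ W) (f.smulRight x) * (LinearMap.mul ℂ _).flip (g.smulRight y) =
        (f ∘ₗ applyₗ y).smulRight (g.smulRight x) by ext X z; simp [mul_comm, smul_smul]]
      simp [mul_comm]

/-- eigenvalues of `X` are roots of unity (cf. `KGV.intGen_trace`, or use the character of `zpowers`) -/
theorem isIntegral_trace {X : End ℂ W} {N : ℕ} (hN : N ≠ 0) (h : X ^ N = 1) :
    IsIntegral ℤ (trace ℂ W X) := by
  exact PermChar.isIntegral_trace (IsIntegral.of_pow (Nat.pos_of_ne_zero hN) (h ▸ isIntegral_one))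

end idem

variable {F V : Type*} [Field F] [Fintype F] [AddCommGroup V] [Module F V] [Fintype V] {σ : F →+* F}
  {B : V →ₛₗ[σ] V →ₗ[F] F} {ε : AddChar F ℂ} {W : Type*} [AddCommGroup W] [Module ℂ W]
  [FiniteDimensional ℂ W] {h : V → End ℂ W} {ρ : UG B →* End ℂ W}

namespace WD

variable (D : WD B ε h ρ) (hB : IsHerm σ B)
include D hB

theorem eps_bar (x : F) : ε (σ x) = ε (-x) := by
  rw [show σ x = σ x + x + -x by ring, AddChar.map_add_eq_mul, D.fix _ (by rw [map_add, hB.invol, add_comm]),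
    one_mul]

theorem mul_neg (v : V) : h v * h (-v) = 1 := by
  rw [D.mul, add_neg_cancel, D.zero, D.fix _ (by rw [map_neg, map_neg, hB.symm]), one_smul]

theorem conj_h (u v : V) : h u * h v * h (-u) = ε (2 * B u v) • h v := by
  rw [D.mul, smul_mul_assoc, D.mul, smul_smul, show u + v + -u = v by abel, map_add, LinearMap.add_apply,
    AddChar.map_add_eq_mul, D.fix (B u (-u)) (by rw [map_neg, map_neg, hB.symm]), one_mul, map_neg,
    ← D.eps_bar hB, hB.symm, ← AddChar.map_add_eq_mul, two_mul]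

theorem dim_ne : (finrank ℂ W : ℂ) ≠ 0 := by
  intro e
  have := D.dim
  rw [Nat.cast_eq_zero.1 e] at this
  exact Nat.card_pos.ne this

theorem orth [DecidableEq V] (u v : V) :
    trace ℂ W (h u * h (-v)) = if u = v then (finrank ℂ W : ℂ) else 0 := by
  split_ifs with e
  · rw [e, D.mul_neg hB, trace_one]
  · rw [D.mul, map_smul, D.tr _ (by rwa [← sub_eq_add_neg, sub_ne_zero]), smul_zero]

theorem basis : ∃ b : Basis V ℂ (End ℂ W), ∀ v, b v = h v := by
  classical
  have li : LinearIndependent ℂ h := Fintype.linearIndependent_iff.2 fun c e v => by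
    have := congrArg (fun X => trace ℂ W (X * h (-v))) e
    simp only [Finset.sum_mul, smul_mul_assoc, map_sum, map_smul, D.orth hB, smul_eq_mul, mul_ite, mul_zero,
      Finset.sum_ite_eq', Finset.mem_univ, if_true, zero_mul, map_zero] at this
    exact (mul_eq_zero.1 this).resolve_right (D.dim_ne hB)
  exact ⟨basisOfLinearIndependentOfCardEqFinrank li (by
    rw [finrank_linearMap, ← sq, D.dim, Nat.card_eq_fintype_card]), fun v => by simp⟩

/-- `trace (h u * h (-v)) = dim • δ_uv`, so the `h v` are independent, hence a basis of `End W` -/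
theorem expand (X : End ℂ W) :
    X = (finrank ℂ W : ℂ)⁻¹ • ∑ v, trace ℂ W (X * h (-v)) • h v := by
  classical
  obtain ⟨b, hb⟩ := D.basis hB
  rw [Finset.smul_sum]
  conv_lhs => rw [← b.sum_repr X]
  refine Finset.sum_congr rfl fun v _ => ?_
  conv_rhs => rw [← b.sum_repr X]
  simp only [hb, Finset.sum_mul, smul_mul_assoc, map_sum, map_smul, D.orth hB, smul_eq_mul, mul_ite, mul_zero,
    Finset.sum_ite_eq', Finset.mem_univ, if_true, smul_smul]
  rw [mul_comm _ (finrank ℂ W : ℂ), inv_mul_cancel_left₀ (D.dim_ne hB)]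

theorem planch (X Y : End ℂ W) : (finrank ℂ W : ℂ) * trace ℂ W (X * Y) =
    ∑ v, trace ℂ W (X * h (-v)) * trace ℂ W (Y * h v) := by
  conv_lhs => rw [D.expand hB X]
  simp only [smul_mul_assoc, Finset.sum_mul, map_smul, map_sum, smul_eq_mul]
  rw [mul_inv_cancel_left₀ (D.dim_ne hB)]
  exact Finset.sum_congr rfl fun v _ => by rw [trace_mul_comm ℂ (h v)]

/-- linear in `Y`; for `Y = h u`: `∑ v, h v h u h (-v) = (∑ v, ε (2 B v u)) h u` and the sum vanishes
for `u ≠ 0` provided `2 ≠ 0` (`v ↦ ε (2 B v u)` is a non-trivial additive character) -/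
theorem twirl (h2 : (2 : F) ≠ 0) (X Y : End ℂ W) : ∑ v, trace ℂ W (X * h v * Y * h (-v)) =
    (finrank ℂ W : ℂ) * (trace ℂ W X * trace ℂ W Y) := by
  classical
  have e : ∀ u, ∑ v, ε (2 * B v u) = if u = 0 then (finrank ℂ W : ℂ) ^ 2 else 0 := fun u => by
    split_ifs with hu
    · have := D.dim
      rw [Nat.card_eq_fintype_card] at this
      simp [hu, ← this]
    · let f : V →+ F := AddMonoidHom.mk' (fun v => 2 * B v u) fun a b => by simp [mul_add]
      refine AddChar.sum_eq_zero_of_ne_one (ψ := ε.compAddMonoidHom f) fun e => D.ne ?_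
      obtain ⟨w, hw⟩ : ∃ w, B u w ≠ 0 := by
        by_contra! e
        exact hu (hB.nondeg u e)
      have hw' : B w u ≠ 0 := by rw [← hB.symm]; exact (map_ne_zero σ).2 hw
      ext x
      have := DFunLike.congr_fun e (σ (x / (2 * B w u)) • w)
      rwa [AddChar.compAddMonoidHom_apply, show f (σ (x / (2 * B w u)) • w) = x by
        simp only [f, AddMonoidHom.mk'_apply, map_smulₛₗ, LinearMap.smul_apply, hB.invol, smul_eq_mul]
        field_simp] at this
  conv_lhs => rw [D.expand hB Y]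
  simp only [mul_assoc X, mul_smul_comm, smul_mul_assoc, Finset.mul_sum, Finset.sum_mul, D.conj_h hB, map_smul,
    map_sum, smul_eq_mul]
  rw [Finset.sum_comm]
  simp only [← Finset.mul_sum, ← Finset.sum_mul, e, ite_mul, zero_mul, mul_ite, mul_zero, Finset.sum_ite_eq',
    Finset.mem_univ, if_true, neg_zero, D.zero, mul_one]
  field_simp [D.dim_ne hB]

/-- `X ↦ ρ g X ρ g⁻¹` permutes the basis `h` like `g` permutes `V`; `trace_lr` -/
theorem fix_card (g : UG B) :
    trace ℂ W (ρ g) * trace ℂ W (ρ g⁻¹) = Nat.card {v : V // g.1 v = v} := by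
  classical
  obtain ⟨b, hb⟩ := D.basis hB
  have e : ∀ v, (mulLeft ℂ (ρ g) * mulRight ℂ (ρ g⁻¹) : End ℂ (End ℂ W)) (b v) = b (g.1 v) := fun v => by
    rw [End.mul_apply, mulRight_apply, mulLeft_apply, hb, hb, ← mul_assoc, D.cj, mul_assoc, ← map_mul,
      mul_inv_cancel, map_one, mul_one]
  rw [← trace_lr, trace_eq_matrix_trace ℂ b, Nat.card_eq_fintype_card, Fintype.card_subtype]
  simp only [Matrix.trace, Matrix.diag, toMatrix_apply, e, b.repr_self, Finsupp.single_apply, Finset.sum_boole]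

theorem norm_sq (g : UG B) : ‖trace ℂ W (ρ g)‖ ^ 2 = Nat.card {v : V // g.1 v = v} := by
  haveI : Finite (V ≃ₗ[F] V) := DFunLike.finite _
  have e := D.fix_card hB g
  rw [show trace ℂ W (ρ g⁻¹) = _ from Cfsg.Lib.Char.character_apply_inv ρ g] at e
  exact_mod_cast (Complex.mul_conj' _).symm.trans e

/-- conjugate `ρ g` by `h u`: `h u ρ g h (-u) = ρ g h (g⁻¹ u) h (-u) = ε (-B (g⁻¹ u) u) ρ g h (g⁻¹ u - u)` -/
theorem tr_shift (g : UG B) (u : V) : trace ℂ W (ρ g) =
    ε (-B ((g⁻¹).1 u) u) * trace ℂ W (ρ g * h ((g⁻¹).1 u - u)) := by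
  have e := D.cj g ((g⁻¹).1 u)
  rw [show g.1 ((g⁻¹).1 u) = u from g.1.apply_symm_apply u] at e
  have e2 := D.mul_neg hB (-u)
  rw [neg_neg] at e2
  rw [← smul_eq_mul, ← map_smul, ← mul_smul_comm, ← map_neg, sub_eq_add_neg, ← D.mul, ← mul_assoc, e,
    trace_mul_comm, ← mul_assoc, e2, one_mul]

/-- `u ↦ g⁻¹ u - u` is bijective -/
theorem norm_tr {g : UG B} (hg : ∀ v, g.1 v = v → v = 0) (v : V) : ‖trace ℂ W (ρ g * h v)‖ = 1 := by
  have inj : Function.Injective fun u : V => (g⁻¹).1 u - u := fun a b e => by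
    have e1 : (g⁻¹).1 (a - b) = a - b := by rw [map_sub]; exact sub_eq_sub_iff_sub_eq_sub.1 e
    refine sub_eq_zero.1 (hg _ ?_)
    conv_lhs => rw [← e1]
    exact g.1.apply_symm_apply _
  obtain ⟨u, rfl⟩ := Finite.surjective_of_injective inj v
  have e := D.norm_sq hB g
  rw [show Nat.card {v : V // g.1 v = v} = 1 from
    Nat.card_eq_one_iff_exists.2 ⟨⟨0, map_zero _⟩, fun x => Subtype.ext (hg _ x.2)⟩, D.tr_shift hB g u,
    norm_mul, AddChar.norm_apply, one_mul, Nat.cast_one] at e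
  exact (pow_eq_one_iff_of_nonneg (norm_nonneg _) two_ne_zero).1 e

/-- for a scalar `c ≠ 1` and isotropic `v = (c⁻¹ - 1) u`, `u` is isotropic and the phase is trivial -/
theorem tr_iso {g : UG B} {c : F} (hg : ∀ v, g.1 v = c • v) (hc : c ≠ 1) {v : V} (hv : B v v = 0) :
    trace ℂ W (ρ g * h v) = trace ℂ W (ρ g) := by
  rcases eq_or_ne v 0 with rfl | h0
  · rw [D.zero, mul_one]
  have c0 : c ≠ 0 := by
    rintro rfl
    exact h0 (g.1.map_eq_zero_iff.1 (by rw [hg, zero_smul]))
  have c1 : c⁻¹ - 1 ≠ 0 := sub_ne_zero.2 (by simpa using hc)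
  have e : ∀ u, (g⁻¹).1 u = c⁻¹ • u := fun u => g.1.injective (by
    rw [show g.1 ((g⁻¹).1 u) = u from g.1.apply_symm_apply u, hg, smul_inv_smul₀ c0])
  rw [D.tr_shift hB g ((c⁻¹ - 1)⁻¹ • v), e, show ∀ u : V, c⁻¹ • u - u = (c⁻¹ - 1) • u from fun u => by
    rw [sub_smul, one_smul], smul_inv_smul₀ c1]
  simp [hv]

/-- the product is `ζ • ρ k * h w` with `ζ` a value of `ε`; the elements `ε x • ρ k * h w` form a
finite submonoid of invertible elements, so some power is `1` -/
theorem integral (g k : UG B) (u u' v v' : V) :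
    IsIntegral ℤ (trace ℂ W (ρ g * (h u * h u') * ρ k * (h v * h v'))) := by
  haveI : Finite (V ≃ₗ[F] V) := DFunLike.finite _
  let M : Submonoid (End ℂ W) :=
    { carrier := Set.range fun p : F × V × UG B => ε p.1 • (h p.2.1 * ρ p.2.2)
      one_mem' := ⟨(0, 0, 1), by simp [D.zero]⟩
      mul_mem' := by
        rintro _ _ ⟨⟨x, a, s⟩, rfl⟩ ⟨⟨y, b, t⟩, rfl⟩
        refine ⟨(x + y + B a (s.1 b), a + s.1 b, s * t), ?_⟩
        simp only [smul_mul_assoc, mul_smul_comm, smul_smul, AddChar.map_add_eq_mul, map_mul]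
        rw [mul_assoc (h a), ← mul_assoc (ρ s) (h b), D.cj, mul_assoc (h _), ← mul_assoc (h a), D.mul,
          smul_mul_assoc, smul_smul, mul_comm (ε y)] }
  have h1 : ∀ a, h a ∈ M := fun a => ⟨(0, a, 1), by simp⟩
  have h2 : ∀ s, ρ s ∈ M := fun s => ⟨(0, 0, s), by simp [D.zero]⟩
  refine PermChar.isIntegral_trace (IsIntegral.of_mem_of_fg (Algebra.adjoin ℤ (M : Set (End ℂ W))) ?_ _
    (Algebra.subset_adjoin (mul_mem (mul_mem (mul_mem (h2 _) (mul_mem (h1 _) (h1 _))) (h2 _))
      (mul_mem (h1 _) (h1 _)))))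
  rw [Algebra.adjoin_eq_span, Submonoid.closure_eq]
  exact Submodule.fg_span (Set.finite_range _)

/-- Moyal self-duality for an idempotent of rank one: both sides equal
`dim * trace (E h(u) E h(-u))` (`planch`, `conj_h`, `idem_one`) -/
theorem moyal {E : End ℂ W} (hE : E * E = E) (h1 : trace ℂ W E = 1) (u : V) :
    ∑ v, trace ℂ W (E * h v) * trace ℂ W (E * h (-v)) * ε (2 * B u v) =
      (finrank ℂ W : ℂ) * (trace ℂ W (E * h u) * trace ℂ W (E * h (-u))) := by
  have e := D.planch hB E (h (-u) * E * h u)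
  rw [← mul_assoc, ← mul_assoc, idem_one hE h1, smul_mul_assoc, map_smul, smul_eq_mul,
    mul_comm (trace ℂ W (E * h (-u)))] at e
  rw [e]
  refine Finset.sum_congr rfl fun v _ => ?_
  rw [mul_assoc (h (-u)), mul_assoc (h (-u)), trace_mul_comm ℂ (h (-u)), mul_assoc E, mul_assoc E, D.conj_h hB,
    mul_smul_comm, map_smul, smul_eq_mul]
  ring

end WD

end Cfsg.Lib.US7
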